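import Mathlib

/-!
# Simple groups have at least three classes of maximal subgroups

Numerical argument.  Let `G` be a finite simple group that is not a `p`-group, all of whose maximal
subgroups are conjugate to `M₁` or `M₂`.  For `q ∣ |G : M₂|` a Sylow `q`-subgroup lies in exactly one
conjugate of `M₁`, and two Sylow `q`-subgroups in different conjugates meet in a subgroup conjugate
into `M₂`.  So on the cosets of `M₁` the Sylow `q`-subgroup has one fixed point and all other orbits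
of length divisible by the `q`-part of `|G : M₂|`; whence `|G : M₂|` divides `|G : M₁| - 1`, and
symmetrically, which is absurd.
-/

set_option autoImplicit false
open Pointwise

namespace Cfsg.Agent.Lib.TwoClasses

variable {G : Type*} [Group G]

theorem mem_cj {g x : G} {M : Subgroup G} : x ∈ MulAut.conj g • M ↔ g⁻¹ * x * g ∈ M := by
  rw [Subgroup.mem_pointwise_smul_iff_inv_smul_mem]
  simp [MulAut.smul_def, MulAut.conj_inv_apply]

theorem index_cj (g : G) (M : Subgroup G) : (MulAut.conj g • M).index = M.index := by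
  have h := Subgroup.relIndex_pointwise_smul (MulAut.conj g) M (⊤ : Subgroup G)
  have e : MulAut.conj g • (⊤ : Subgroup G) = ⊤ := by
    ext x
    rw [mem_cj]
    simp
  rw [e] at h
  simpa [Subgroup.relIndex_top_right] using h

theorem card_cj (g : G) (M : Subgroup G) : Nat.card ↥(MulAut.conj g • M) = Nat.card M := by
  rw [Subgroup.pointwise_smul_def]
  exact Nat.card_congr (Subgroup.equivMapOfInjective _ _ (by
    intro a b h
    simpa using h)).toEquiv.symm

theorem cj_cj (g h : G) (M : Subgroup G) :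
    MulAut.conj g • (MulAut.conj h • M) = MulAut.conj (g * h) • M := by
  rw [smul_smul, map_mul]

theorem cj_inv_cj (g : G) (M : Subgroup G) : MulAut.conj g⁻¹ • (MulAut.conj g • M) = M := by
  rw [cj_cj]; simp

theorem cj_cj_inv (g : G) (M : Subgroup G) : MulAut.conj g • (MulAut.conj g⁻¹ • M) = M := by
  rw [cj_cj]; simp

theorem cj_top (g : G) : MulAut.conj g • (⊤ : Subgroup G) = ⊤ := by
  ext x
  rw [mem_cj]
  simp

theorem cj_le_cj (g : G) {A B : Subgroup G} (h : A ≤ B) :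
    MulAut.conj g • A ≤ MulAut.conj g • B := by
  intro x hx
  rw [mem_cj] at hx ⊢
  exact h hx

theorem isCoatom_cj (g : G) {M : Subgroup G} (h : IsCoatom M) : IsCoatom (MulAut.conj g • M) := by
  constructor
  · intro ht
    apply h.1
    rw [← cj_inv_cj g M, ht, cj_top]
  · intro K hK
    have h1 : M < MulAut.conj g⁻¹ • K := by
      refine lt_of_le_of_ne ?_ ?_
      · have := cj_le_cj g⁻¹ hK.le
        rwa [cj_inv_cj] at this
      · intro he
        apply hK.ne
        rw [he, cj_cj_inv]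
    have h2 := h.2 _ h1
    rw [← cj_cj_inv g K, h2, cj_top]

theorem cj_eq_of_normal (g : G) {M : Subgroup G} (h : M.Normal) : MulAut.conj g • M = M := by
  ext x
  rw [mem_cj]
  constructor
  · intro hx
    have := h.conj_mem _ hx g
    have e : g * (g⁻¹ * x * g) * g⁻¹ = x := by group
    rwa [e] at this
  · intro hx
    have := h.conj_mem _ hx g⁻¹
    simpa using this

section finite

variable [Finite G]

/-- Sylow subgroups of `G` inside `H` are conjugate in `H`. -/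
theorem sylow_conj_in {q : ℕ} [Fact q.Prime] (H : Subgroup G) (A B : Sylow q G)
    (hA : (A : Subgroup G) ≤ H) (hB : (B : Subgroup G) ≤ H) : ∃ m ∈ H, m • A = B := by
  obtain ⟨m, hm⟩ := MulAction.exists_smul_eq H (A.subtype hA) (B.subtype hB)
  refine ⟨m, m.2, ?_⟩
  rw [Sylow.smul_subtype hA] at hm
  exact Sylow.subtype_injective hm

/-- A `q`-subgroup of `H`, where `q` does not divide the index of `H`, lies in a Sylow `q`-subgroup
of `G` inside `H`. -/
theorem exists_sylow_between {q : ℕ} [hq' : Fact q.Prime] (H S : Subgroup G) (hq : ¬ q ∣ H.index)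
    (hSH : S ≤ H) (hS : IsPGroup q S) : ∃ Q : Sylow q G, S ≤ Q ∧ (Q : Subgroup G) ≤ H := by
  have hS' : IsPGroup q (S.subgroupOf H) := by
    have e : (S.subgroupOf H) ≃* S := Subgroup.subgroupOfEquivOfLe hSH
    exact hS.of_equiv e.symm
  obtain ⟨R, hR⟩ := hS'.exists_le_sylow
  have hcard : Nat.card ↥((R : Subgroup H).map H.subtype) =
      q ^ (Nat.card G).factorization q := by
    rw [Subgroup.card_map_of_injective H.subtype_injective, R.card_eq_multiplicity]
    have h1 : Nat.card G = Nat.card H * H.index := (Subgroup.card_mul_index H).symm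
    have h3 : H.index ≠ 0 := Subgroup.index_ne_zero_of_finite
    have h4 : Nat.card H ≠ 0 := Nat.card_pos.ne'
    rw [h1, Nat.factorization_mul h4 h3]
    simp [Nat.factorization_eq_zero_of_not_dvd hq]
  refine ⟨Sylow.ofCard _ hcard, ?_, ?_⟩
  · intro x hx
    rw [Sylow.coe_ofCard]
    refine ⟨⟨x, hSH hx⟩, hR ?_, rfl⟩
    simpa [Subgroup.mem_subgroupOf] using hx
  · rw [Sylow.coe_ofCard]
    intro x hx
    obtain ⟨y, _, rfl⟩ := hx
    exact y.2

/-- A group action with a fixed point `α` all of whose other orbits have length divisible by `m`. -/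
theorem dvd_card_sub_one {Q X : Type*} [Group Q] [MulAction Q X] [Finite X] (α : X)
    (hα : ∀ x : Q, x • α = α) (m : ℕ) (h : ∀ a : X, a ≠ α → m ∣ Nat.card (MulAction.orbit Q a)) :
    m ∣ Nat.card X - 1 := by
  classical
  haveI := Fintype.ofFinite (MulAction.orbitRel.Quotient Q X)
  have h1 : Nat.card X = ∑ ω : MulAction.orbitRel.Quotient Q X,
      Nat.card (MulAction.orbit Q ω.out) := by
    rw [Nat.card_congr (MulAction.selfEquivSigmaOrbits Q X), Nat.card_sigma]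
  have hsing : ∀ y : X, y ∈ MulAction.orbit Q α → y = α := by
    rintro y ⟨x, rfl⟩
    exact hα x
  let ω₀ : MulAction.orbitRel.Quotient Q X := Quotient.mk'' α
  have hω₀ : ω₀.out = α := by
    apply hsing
    have : MulAction.orbitRel Q X |>.r ω₀.out α := Quotient.mk_out (s := MulAction.orbitRel Q X) α
    exact MulAction.orbitRel_apply.1 this
  have hne : ∀ ω : MulAction.orbitRel.Quotient Q X, ω ≠ ω₀ → ω.out ≠ α := by
    intro ω hω he
    apply hω
    rw [← Quotient.out_eq' ω, he]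
  rw [h1, ← Finset.add_sum_erase _ _ (Finset.mem_univ ω₀)]
  have h2 : Nat.card (MulAction.orbit Q ω₀.out) = 1 := by
    rw [hω₀]
    have : (MulAction.orbit Q α) = {α} := by
      ext y
      constructor
      · exact hsing y
      · rintro rfl
        exact MulAction.mem_orbit_self _
    rw [this]
    simp
  rw [h2, Nat.add_sub_cancel_left]
  refine Finset.dvd_sum fun ω hω => h _ (hne ω (Finset.ne_of_mem_erase hω))

theorem lt_normalizer_inf {q : ℕ} {D Q : Subgroup G} (hQ : IsPGroup q Q) (hDQ : D < Q)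
    [hq : Fact q.Prime] : D < Subgroup.normalizer (D : Set G) ⊓ Q := by
  haveI : Group.IsNilpotent Q := hQ.isNilpotent
  have hnc := Group.normalizerCondition_of_isNilpotent (G := Q)
  have hlt : D.subgroupOf Q < ⊤ := by
    refine lt_top_iff_ne_top.2 fun he => hDQ.not_ge ?_
    exact Subgroup.subgroupOf_eq_top.1 he
  obtain ⟨x, hx1, hx2⟩ := SetLike.exists_of_lt (hnc _ hlt)
  refine lt_of_le_of_ne (le_inf Subgroup.le_normalizer hDQ.le) fun he => hx2 ?_
  have hmem : (x : G) ∈ Subgroup.normalizer (D : Set G) ⊓ Q := by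
    refine Subgroup.mem_inf.2 ⟨?_, x.2⟩
    rw [Subgroup.mem_normalizer_iff]
    intro y
    rw [Subgroup.mem_normalizer_iff] at hx1
    constructor
    · intro hy
      have hyQ : y ∈ Q := hDQ.le hy
      have := (hx1 ⟨y, hyQ⟩).1 (by simpa [Subgroup.mem_subgroupOf] using hy)
      simpa [Subgroup.mem_subgroupOf] using this
    · intro hy
      have hyQ' : (x : G) * y * (x : G)⁻¹ ∈ Q := hDQ.le hy
      have hyQ : y ∈ Q := by
        have := Q.mul_mem (Q.mul_mem (Q.inv_mem x.2) hyQ') x.2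
        simpa [mul_assoc] using this
      have := (hx1 ⟨y, hyQ⟩).2 (by simpa [Subgroup.mem_subgroupOf] using hy)
      simpa [Subgroup.mem_subgroupOf] using this
  rw [← he] at hmem
  simpa [Subgroup.mem_subgroupOf] using hmem

section core

variable {M₁ M₂ : Subgroup G}

theorem coatom_of_sylow {q : ℕ} [Fact q.Prime]
    (hall : ∀ M : Subgroup G, IsCoatom M → ∃ g : G, M = MulAut.conj g • M₁ ∨ M = MulAut.conj g • M₂)
    (hq : q ∣ M₂.index) (Q : Sylow q G) {C : Subgroup G} (hC : IsCoatom C)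
    (hQ : (Q : Subgroup G) ≤ C) : ∃ g : G, C = MulAut.conj g • M₁ := by
  obtain ⟨g, h | h⟩ := hall C hC
  · exact ⟨g, h⟩
  · exfalso
    apply Q.not_dvd_index
    have h1 := Subgroup.index_dvd_of_le hQ
    rw [h, index_cj] at h1
    exact hq.trans h1

theorem sylow_ne_top {q : ℕ} [Fact q.Prime] (hnp : ¬ IsPGroup q G) (Q : Sylow q G) :
    (Q : Subgroup G) ≠ ⊤ := by
  intro h
  apply hnp
  have h1 : IsPGroup q (Q : Subgroup G) := Q.isPGroup'
  rw [h] at h1
  exact h1.of_equiv Subgroup.topEquiv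

theorem sylow_ne_bot {q : ℕ} [Fact q.Prime] {M : Subgroup G} (hq : q ∣ M.index) (Q : Sylow q G) :
    (Q : Subgroup G) ≠ ⊥ := by
  intro h
  apply Q.not_dvd_index
  rw [h, Subgroup.index_bot]
  exact hq.trans (Subgroup.index_dvd_card M)

theorem exists_coatom_ge {H : Subgroup G} (h : H ≠ ⊤) : ∃ C : Subgroup G, IsCoatom C ∧ H ≤ C :=
  (eq_top_or_exists_le_coatom H).resolve_left h

theorem exists_cj_ge {q : ℕ} [Fact q.Prime] (hnp : ¬ IsPGroup q G)
    (hall : ∀ M : Subgroup G, IsCoatom M → ∃ g : G, M = MulAut.conj g • M₁ ∨ M = MulAut.conj g • M₂)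
    (hq : q ∣ M₂.index) (Q : Sylow q G) : ∃ g : G, (Q : Subgroup G) ≤ MulAut.conj g • M₁ := by
  obtain ⟨C, hC, hQC⟩ := exists_coatom_ge (sylow_ne_top hnp Q)
  obtain ⟨g, rfl⟩ := coatom_of_sylow hall hq Q hC hQC
  exact ⟨g, hQC⟩

theorem not_dvd_index_left {q : ℕ} [Fact q.Prime] (hnp : ¬ IsPGroup q G)
    (hall : ∀ M : Subgroup G, IsCoatom M → ∃ g : G, M = MulAut.conj g • M₁ ∨ M = MulAut.conj g • M₂)
    (hq : q ∣ M₂.index) : ¬ q ∣ M₁.index := by
  intro h
  let Q : Sylow q G := default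
  obtain ⟨g, hg⟩ := exists_cj_ge hnp hall hq Q
  apply Q.not_dvd_index
  have h1 := Subgroup.index_dvd_of_le hg
  rw [index_cj] at h1
  exact h.trans h1

theorem sylow_smul_le {q : ℕ} [Fact q.Prime] {Q : Sylow q G} {g : G} {M : Subgroup G}
    (h : (Q : Subgroup G) ≤ MulAut.conj g • M) : ((g⁻¹ • Q : Sylow q G) : Subgroup G) ≤ M := by
  rw [Sylow.coe_subgroup_smul]
  intro x hx
  rw [mem_cj] at hx
  have := h hx
  rw [mem_cj] at this
  simpa [mul_assoc] using this

theorem cj_eq_of_mul_mem {g k : G} {M : Subgroup G} (h : g⁻¹ * k ∈ M) :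
    MulAut.conj g • M = MulAut.conj k • M := by
  have e : k = g * (g⁻¹ * k) := by group
  conv_rhs => rw [e]
  rw [← cj_cj]
  congr 1
  ext x
  rw [mem_cj]
  set u := g⁻¹ * k
  constructor
  · intro hx
    exact M.mul_mem (M.mul_mem (M.inv_mem h) hx) h
  · intro hx
    have := M.mul_mem (M.mul_mem h hx) (M.inv_mem h)
    simpa [mul_assoc] using this

/-- A Sylow `q`-subgroup lies in a unique conjugate of `M₁`. -/
theorem cj_unique [IsSimpleGroup G] {q : ℕ} [Fact q.Prime] (hnp : ¬ IsPGroup q G)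
    (hall : ∀ M : Subgroup G, IsCoatom M → ∃ g : G, M = MulAut.conj g • M₁ ∨ M = MulAut.conj g • M₂)
    (hq : q ∣ M₂.index) (Q : Sylow q G) {g h : G} (hg : (Q : Subgroup G) ≤ MulAut.conj g • M₁)
    (hh : (Q : Subgroup G) ≤ MulAut.conj h • M₁) :
    MulAut.conj g • M₁ = MulAut.conj h • M₁ := by
  have hN : Subgroup.normalizer ((Q : Subgroup G) : Set G) ≠ ⊤ := by
    intro he
    have hn := Subgroup.normalizer_eq_top_iff.1 he
    rcases IsSimpleGroup.eq_bot_or_eq_top_of_normal _ hn with h0 | h0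
    · exact sylow_ne_bot hq Q h0
    · exact sylow_ne_top hnp Q h0
  obtain ⟨C, hC, hNC⟩ := exists_coatom_ge hN
  obtain ⟨k, rfl⟩ := coatom_of_sylow hall hq Q hC (Subgroup.le_normalizer.trans hNC)
  have key : ∀ g : G, (Q : Subgroup G) ≤ MulAut.conj g • M₁ →
      MulAut.conj g • M₁ = MulAut.conj k • M₁ := by
    intro g hg
    have hk : (Q : Subgroup G) ≤ MulAut.conj k • M₁ := Subgroup.le_normalizer.trans hNC
    obtain ⟨m, hm, hme⟩ := sylow_conj_in M₁ (g⁻¹ • Q) (k⁻¹ • Q) (sylow_smul_le hg) (sylow_smul_le hk)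
    have h1 : (k * m * g⁻¹) • Q = Q := by
      rw [mul_smul, mul_smul, hme, smul_inv_smul]
    have h2 : k * m * g⁻¹ ∈ Subgroup.normalizer ((Q : Subgroup G) : Set G) := Sylow.smul_eq_iff_mem_normalizer.1 h1
    have h3 := hNC h2
    rw [mem_cj] at h3
    have h4 : k⁻¹ * (k * m * g⁻¹) * k = m * (g⁻¹ * k) := by group
    rw [h4] at h3
    apply cj_eq_of_mul_mem
    exact (M₁.mul_mem_cancel_left hm).1 h3
  rw [key g hg, key h hh]

/-- Two Sylow `q`-subgroups in different conjugates of `M₁`. -/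
def InDiff (M₁ : Subgroup G) {q : ℕ} (Q₁ Q₂ : Sylow q G) : Prop :=
  ∃ g₁ g₂ : G, (Q₁ : Subgroup G) ≤ MulAut.conj g₁ • M₁ ∧ (Q₂ : Subgroup G) ≤ MulAut.conj g₂ • M₁ ∧
    MulAut.conj g₁ • M₁ ≠ MulAut.conj g₂ • M₁

theorem exists_bound [IsSimpleGroup G] {q : ℕ} [hq' : Fact q.Prime] (hnp : ¬ IsPGroup q G)
    (hM₁ : IsCoatom M₁)
    (hall : ∀ M : Subgroup G, IsCoatom M → ∃ g : G, M = MulAut.conj g • M₁ ∨ M = MulAut.conj g • M₂)
    (hq : q ∣ M₂.index) :
    ∃ S : Subgroup G, (∃ h : G, S ≤ MulAut.conj h • M₂) ∧ IsPGroup q S ∧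
      ∀ Q₁ Q₂ : Sylow q G, InDiff M₁ Q₁ Q₂ →
        Nat.card ↥((Q₁ : Subgroup G) ⊓ (Q₂ : Subgroup G)) ≤ Nat.card S := by
  classical
  by_cases hex : ∃ Q₁ Q₂ : Sylow q G, InDiff M₁ Q₁ Q₂
  swap
  · refine ⟨⊥, ⟨1, bot_le⟩, IsPGroup.of_bot, fun Q₁ Q₂ h => absurd ⟨Q₁, Q₂, h⟩ hex⟩
  obtain ⟨A, B, hAB⟩ := hex
  let α := {p : Sylow q G × Sylow q G // InDiff M₁ p.1 p.2}
  haveI : Nonempty α := ⟨⟨(A, B), hAB⟩⟩
  obtain ⟨⟨⟨Q₁, Q₂⟩, hP⟩, hmax⟩ := Finite.exists_max
    (fun p : α => Nat.card ↥((p.1.1 : Subgroup G) ⊓ (p.1.2 : Subgroup G)))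
  have hmax' : ∀ Q₃ Q₄ : Sylow q G, InDiff M₁ Q₃ Q₄ →
      Nat.card ↥((Q₃ : Subgroup G) ⊓ (Q₄ : Subgroup G)) ≤
        Nat.card ↥((Q₁ : Subgroup G) ⊓ (Q₂ : Subgroup G)) :=
    fun Q₃ Q₄ h => hmax ⟨(Q₃, Q₄), h⟩
  set D : Subgroup G := (Q₁ : Subgroup G) ⊓ (Q₂ : Subgroup G) with hD
  by_cases hDb : D = ⊥
  · refine ⟨⊥, ⟨1, bot_le⟩, IsPGroup.of_bot, fun Q₃ Q₄ h => ?_⟩
    have := hmax' Q₃ Q₄ h
    rw [hDb] at this
    exact this
  obtain ⟨g₁, g₂, h₁, h₂, hne⟩ := hP
  have hneQ : (Q₁ : Subgroup G) ≠ Q₂ := by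
    intro he
    exact hne (cj_unique hnp hall hq Q₁ h₁ (he ▸ h₂))
  have hDQ₁ : D < Q₁ := by
    refine lt_of_le_of_ne inf_le_left fun he => hneQ ?_
    have hle : (Q₁ : Subgroup G) ≤ Q₂ := by
      rw [← he]; exact inf_le_right
    exact Subgroup.eq_of_le_of_card_ge hle (by
      rw [Q₁.card_eq_multiplicity, Q₂.card_eq_multiplicity])
  have hDQ₂ : D < Q₂ := by
    refine lt_of_le_of_ne inf_le_right fun he => hneQ ?_
    have hle : (Q₂ : Subgroup G) ≤ Q₁ := by
      rw [← he]; exact inf_le_left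
    exact (Subgroup.eq_of_le_of_card_ge hle (by
      rw [Q₁.card_eq_multiplicity, Q₂.card_eq_multiplicity])).symm
  have hS₁ := lt_normalizer_inf (Q₁.isPGroup') hDQ₁
  have hS₂ := lt_normalizer_inf (Q₂.isPGroup') hDQ₂
  have hN : Subgroup.normalizer (D : Set G) ≠ ⊤ := by
    intro he
    have hn := Subgroup.normalizer_eq_top_iff.1 he
    rcases IsSimpleGroup.eq_bot_or_eq_top_of_normal _ hn with h0 | h0
    · exact hDb h0
    · apply sylow_ne_top hnp Q₁
      rw [eq_top_iff, ← h0]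
      exact hDQ₁.le
  obtain ⟨C, hC, hNC⟩ := exists_coatom_ge hN
  have hpS₁ : IsPGroup q ↥(Subgroup.normalizer (D : Set G) ⊓ (Q₁ : Subgroup G)) :=
    Q₁.isPGroup'.to_le inf_le_right
  have hpS₂ : IsPGroup q ↥(Subgroup.normalizer (D : Set G) ⊓ (Q₂ : Subgroup G)) :=
    Q₂.isPGroup'.to_le inf_le_right
  have hcardlt : ∀ (Q₃ Q₄ : Sylow q G), InDiff M₁ Q₃ Q₄ →
      Nat.card ↥((Q₃ : Subgroup G) ⊓ (Q₄ : Subgroup G)) ≤
        Nat.card ↥(Subgroup.normalizer (D : Set G) ⊓ (Q₁ : Subgroup G)) := by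
    intro Q₃ Q₄ h
    refine (hmax' Q₃ Q₄ h).trans ?_
    exact Subgroup.card_le_of_le hS₁.le
  obtain ⟨h, hh | hh⟩ := hall C hC
  · exfalso
    -- `C` is a conjugate of `M₁`
    have hqC : ¬ q ∣ C.index := by
      rw [hh, index_cj]
      exact not_dvd_index_left hnp hall hq
    have key : ∀ (Q₀ : Sylow q G) (g₀ : G), (Q₀ : Subgroup G) ≤ MulAut.conj g₀ • M₁ →
        D < Subgroup.normalizer (D : Set G) ⊓ (Q₀ : Subgroup G) → MulAut.conj g₀ • M₁ = C := by
      intro Q₀ g₀ h₀ hlt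
      by_contra hne₀
      obtain ⟨Q₃, h3, h3C⟩ := exists_sylow_between C (Subgroup.normalizer (D : Set G) ⊓ (Q₀ : Subgroup G)) hqC
        (inf_le_left.trans hNC) (Q₀.isPGroup'.to_le inf_le_right)
      have hdiff : InDiff M₁ Q₀ Q₃ := by
        refine ⟨g₀, h, h₀, ?_, ?_⟩
        · rw [← hh]; exact h3C
        · rw [← hh]; exact hne₀
      have h5 := hmax' Q₀ Q₃ hdiff
      have h6 : Subgroup.normalizer (D : Set G) ⊓ (Q₀ : Subgroup G) ≤ (Q₀ : Subgroup G) ⊓ (Q₃ : Subgroup G) :=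
        le_inf inf_le_right h3
      have h7 : D < (Q₀ : Subgroup G) ⊓ (Q₃ : Subgroup G) := hlt.trans_le h6
      have h8 : Nat.card D < Nat.card ↥((Q₀ : Subgroup G) ⊓ (Q₃ : Subgroup G)) :=
        lt_of_le_of_ne (Subgroup.card_le_of_le h7.le)
          (fun he => h7.ne (Subgroup.eq_of_le_of_card_ge h7.le he.ge))
      omega
    exact hne ((key Q₁ g₁ h₁ hS₁).trans (key Q₂ g₂ h₂ hS₂).symm)
  · refine ⟨Subgroup.normalizer (D : Set G) ⊓ (Q₁ : Subgroup G), ⟨h, ?_⟩, hpS₁, hcardlt⟩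
    rw [← hh]
    exact inf_le_left.trans hNC

theorem normalizer_eq_of_coatom [IsSimpleGroup G] {q : ℕ} [Fact q.Prime] (hnp : ¬ IsPGroup q G)
    (hM₁ : IsCoatom M₁) (hq : q ∣ M₂.index) :
    Subgroup.normalizer (M₁ : Set G) = M₁ := by
  by_contra hne
  have hlt : M₁ < Subgroup.normalizer (M₁ : Set G) :=
    lt_of_le_of_ne Subgroup.le_normalizer (Ne.symm hne)
  have ht := hM₁.2 _ hlt
  have hn := Subgroup.normalizer_eq_top_iff.1 ht
  rcases IsSimpleGroup.eq_bot_or_eq_top_of_normal _ hn with h0 | h0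
  · let Q : Sylow q G := default
    have h1 : M₁ < Q := by
      rw [h0]
      exact bot_lt_iff_ne_bot.2 (sylow_ne_bot hq Q)
    exact sylow_ne_top hnp Q (hM₁.2 _ h1)
  · exact hM₁.1 h0

/-- The key divisibility, for a prime power. -/
theorem pow_dvd_index_sub_one [IsSimpleGroup G] {q : ℕ} [hq' : Fact q.Prime]
    (hnp : ¬ IsPGroup q G) (hM₁ : IsCoatom M₁)
    (hall : ∀ M : Subgroup G, IsCoatom M → ∃ g : G, M = MulAut.conj g • M₁ ∨ M = MulAut.conj g • M₂)
    {k : ℕ} (hk : k ≠ 0) (hqk : q ^ k ∣ M₂.index) : q ^ k ∣ M₁.index - 1 := by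
  classical
  have hq : q ∣ M₂.index := (dvd_pow_self q hk).trans hqk
  have hqp : q.Prime := hq'.out
  obtain ⟨S, ⟨h, hSh⟩, hSp, hS⟩ := exists_bound hnp hM₁ hall hq
  let Q : Sylow q G := default
  obtain ⟨g₀, hg₀⟩ := exists_cj_ge hnp hall hq Q
  have hself := normalizer_eq_of_coatom hnp hM₁ hq
  have hqi : ¬ q ∣ M₁.index := not_dvd_index_left hnp hall hq
  have hcardS : q ^ k * Nat.card S ∣ Nat.card G := by
    have h1 : Nat.card S ∣ Nat.card M₂ := by
      have := Subgroup.card_dvd_of_le hSh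
      rwa [card_cj] at this
    calc q ^ k * Nat.card S ∣ M₂.index * Nat.card M₂ := Nat.mul_dvd_mul hqk h1
      _ = Nat.card G := by rw [mul_comm, Subgroup.card_mul_index]
  obtain ⟨s, hs⟩ := IsPGroup.iff_card.1 hSp
  have hcardQ : q ^ (k + s) ∣ Nat.card Q := by
    apply Q.pow_dvd_card_of_pow_dvd_card
    rw [pow_add, ← hs]
    exact hcardS
  obtain ⟨n, hn⟩ := IsPGroup.iff_card.1 Q.isPGroup'
  have hks : k + s ≤ n := by
    rw [hn] at hcardQ
    exact (Nat.pow_dvd_pow_iff_le_right hqp.one_lt).1 hcardQ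
  rw [show M₁.index = Nat.card (G ⧸ M₁) from rfl]
  refine dvd_card_sub_one (Q := (Q : Subgroup G)) ((g₀ : G) : G ⧸ M₁) ?_ _ ?_
  · rintro ⟨x, hx⟩
    show ((x * g₀ : G) : G ⧸ M₁) = _
    rw [QuotientGroup.eq]
    have := hg₀ ((Q : Subgroup G).inv_mem hx)
    rw [mem_cj] at this
    simpa [mul_assoc] using this
  · intro a ha
    obtain ⟨g, rfl⟩ := QuotientGroup.mk_surjective a
    -- the conjugate `L` is different
    have hL : MulAut.conj g₀ • M₁ ≠ MulAut.conj g • M₁ := by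
      intro he
      apply ha
      symm
      rw [QuotientGroup.eq]
      have h0 : MulAut.conj (g₀⁻¹ * g) • M₁ = M₁ := by
        rw [← cj_cj, ← he, cj_inv_cj]
      have h1 : g₀⁻¹ * g ∈ Subgroup.normalizer (M₁ : Set G) := by
        rw [Subgroup.mem_normalizer_iff]
        intro x
        have h2 : ∀ y : G, y ∈ M₁ ↔ (g₀⁻¹ * g)⁻¹ * y * (g₀⁻¹ * g) ∈ M₁ := by
          intro y
          rw [← mem_cj, h0]
        have h3 := h2 ((g₀⁻¹ * g) * x * (g₀⁻¹ * g)⁻¹)
        rw [h3]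
        have e : (g₀⁻¹ * g)⁻¹ * ((g₀⁻¹ * g) * x * (g₀⁻¹ * g)⁻¹) * (g₀⁻¹ * g) = x := by group
        rw [e]
      rwa [hself] at h1
    set L := MulAut.conj g • M₁ with hLdef
    have hqL : ¬ q ∣ L.index := by
      rw [hLdef, index_cj]; exact hqi
    obtain ⟨Q₂, hQ₂, hQ₂L⟩ := exists_sylow_between L ((Q : Subgroup G) ⊓ L) hqL inf_le_right
      (Q.isPGroup'.to_le inf_le_left)
    have hdiff : InDiff M₁ Q Q₂ := ⟨g₀, g, hg₀, hQ₂L, hL⟩
    have hb1 := hS Q Q₂ hdiff
    have hb2 : Nat.card ↥((Q : Subgroup G) ⊓ L) ≤ Nat.card S :=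
      (Subgroup.card_le_of_le (le_inf inf_le_left hQ₂)).trans hb1
    -- the stabilizer
    let St := MulAction.stabilizer (Q : Subgroup G) ((g : G) : G ⧸ M₁)
    have hst : Nat.card St ≤ Nat.card ↥((Q : Subgroup G) ⊓ L) := by
      refine Nat.card_le_card_of_injective
        (fun s : St => (⟨((s : (Q : Subgroup G)) : G), ⟨(s : (Q : Subgroup G)).2, ?_⟩⟩ :
          ↥((Q : Subgroup G) ⊓ L))) ?_
      · have h1 : (s : (Q : Subgroup G)) • ((g : G) : G ⧸ M₁) = ((g : G) : G ⧸ M₁) :=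
          MulAction.mem_stabilizer_iff.1 s.2
        have h2 : (((s : (Q : Subgroup G)) : G) * g : G) = (g : G ⧸ M₁) := h1
        rw [QuotientGroup.eq] at h2
        have h3 := M₁.inv_mem h2
        show _ ∈ MulAut.conj g • M₁
        rw [mem_cj]
        simpa [mul_assoc] using h3
      · intro a b hab
        apply Subtype.ext
        apply Subtype.ext
        exact congrArg (fun x : ↥((Q : Subgroup G) ⊓ L) => (x : G)) hab
    have horb : Nat.card (MulAction.orbit (Q : Subgroup G) ((g : G) : G ⧸ M₁)) = St.index :=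
      Nat.card_congr (MulAction.orbitEquivQuotientStabilizer _ _)
    rw [horb]
    have hprod : Nat.card St * St.index = q ^ n := by
      rw [Subgroup.card_mul_index, hn]
    obtain ⟨b, -, hb⟩ := (Nat.dvd_prime_pow hqp).1 (Dvd.intro _ hprod)
    obtain ⟨a, -, ha'⟩ := (Nat.dvd_prime_pow hqp).1 (Dvd.intro_left _ hprod)
    rw [ha']
    apply pow_dvd_pow
    have h5 : q ^ b ≤ q ^ s := by
      rw [← hb, ← hs]; exact hst.trans hb2
    have h6 : b ≤ s := (Nat.pow_le_pow_iff_right hqp.one_lt).1 h5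
    rw [hb, ha', ← pow_add] at hprod
    have h7 : b + a = n := Nat.pow_right_injective hqp.two_le hprod
    omega

/-- One half of the numerics. -/
theorem index_dvd_index_sub_one [IsSimpleGroup G] (hnp : ∀ q : ℕ, q.Prime → ¬ IsPGroup q G)
    (hM₁ : IsCoatom M₁)
    (hall : ∀ M : Subgroup G, IsCoatom M → ∃ g : G, M = MulAut.conj g • M₁ ∨ M = MulAut.conj g • M₂) :
    M₂.index ∣ M₁.index - 1 := by
  rw [Nat.dvd_iff_prime_pow_dvd_dvd]
  intro q k hq hqk
  by_cases hk : k = 0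
  · simp [hk]
  haveI : Fact q.Prime := ⟨hq⟩
  exact pow_dvd_index_sub_one (hnp q hq) hM₁ hall hk hqk

/-- **No simple group with two classes of maximal subgroups.** -/
theorem simple_false [IsSimpleGroup G] (hnp : ∀ q : ℕ, q.Prime → ¬ IsPGroup q G)
    (hM₁ : IsCoatom M₁) (hM₂ : IsCoatom M₂)
    (hall : ∀ M : Subgroup G, IsCoatom M → ∃ g : G, M = MulAut.conj g • M₁ ∨ M = MulAut.conj g • M₂) :
    False := by
  have h1 := index_dvd_index_sub_one hnp hM₁ hall
  have h2 := index_dvd_index_sub_one (M₁ := M₂) (M₂ := M₁) hnp hM₂ (fun M hM => by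
    obtain ⟨g, h | h⟩ := hall M hM
    · exact ⟨g, Or.inr h⟩
    · exact ⟨g, Or.inl h⟩)
  have hi1 : M₁.index ≠ 1 := fun h => hM₁.1 (Subgroup.index_eq_one.1 h)
  have hi2 : M₂.index ≠ 1 := fun h => hM₂.1 (Subgroup.index_eq_one.1 h)
  have hi1' : M₁.index ≠ 0 := Subgroup.index_ne_zero_of_finite
  have hi2' : M₂.index ≠ 0 := Subgroup.index_ne_zero_of_finite
  have h3 := Nat.le_of_dvd (by omega) h1
  have h4 := Nat.le_of_dvd (by omega) h2
  omega

end core

end finite

end Cfsg.Agent.Lib.TwoClasses
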