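import Mathlib
import Cfsg.Agent.Lib.TwoClasses.Core
import Cfsg.Agent.Lib.Solvable.Hall
import Cfsg.Agent.Lib.Solvable.MinimalNormal

/-!
# Groups with two classes of maximal subgroups

A finite group all of whose maximal subgroups are conjugate to one of two subgroups is solvable;
if it has exactly two classes of maximal subgroups its order has exactly two prime divisors.
-/

set_option autoImplicit false
open Pointwise

namespace Cfsg.Agent.Lib.TwoClasses

open Cfsg.Agent.Lib.Solvable.MinimalNormal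

universe u

/-- All maximal subgroups are conjugate to `M₁` or `M₂`. -/
def Cov {G : Type*} [Group G] (M₁ M₂ : Subgroup G) : Prop :=
  ∀ M : Subgroup G, IsCoatom M → ∃ g : G, M = MulAut.conj g • M₁ ∨ M = MulAut.conj g • M₂

theorem Cov.symm {G : Type*} [Group G] {M₁ M₂ : Subgroup G} (h : Cov M₁ M₂) : Cov M₂ M₁ := by
  intro M hM
  obtain ⟨g, h | h⟩ := h M hM
  · exact ⟨g, Or.inr h⟩
  · exact ⟨g, Or.inl h⟩

theorem isCoatom_comap_mk {G : Type*} [Group G] (N : Subgroup G) [N.Normal]
    {M : Subgroup (G ⧸ N)} (hM : IsCoatom M) : IsCoatom (M.comap (QuotientGroup.mk' N)) := by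
  constructor
  · intro h
    apply hM.1
    rw [eq_top_iff]
    intro x _
    obtain ⟨g, rfl⟩ := QuotientGroup.mk'_surjective N x
    have : g ∈ M.comap (QuotientGroup.mk' N) := by rw [h]; trivial
    exact this
  · intro H hH
    have hle : M ≤ H.map (QuotientGroup.mk' N) := by
      intro x hx
      obtain ⟨g, rfl⟩ := QuotientGroup.mk'_surjective N x
      exact ⟨g, hH.le hx, rfl⟩
    have hne : M ≠ H.map (QuotientGroup.mk' N) := by
      intro he
      apply hH.not_ge
      intro g hg
      have : QuotientGroup.mk' N g ∈ M := by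
        rw [he]; exact ⟨g, hg, rfl⟩
      exact this
    have htop := hM.2 _ (lt_of_le_of_ne hle hne)
    rw [eq_top_iff]
    intro g _
    have h1 : QuotientGroup.mk' N g ∈ H.map (QuotientGroup.mk' N) := by rw [htop]; trivial
    obtain ⟨y, hy, hyg⟩ := h1
    have h2 : y⁻¹ * g ∈ N := QuotientGroup.eq.1 hyg
    have h3 : y⁻¹ * g ∈ H := hH.le (by
      show QuotientGroup.mk' N (y⁻¹ * g) ∈ M
      have : QuotientGroup.mk' N (y⁻¹ * g) = 1 := (QuotientGroup.eq_one_iff _).2 h2
      rw [this]; exact M.one_mem)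
    have := H.mul_mem hy h3
    simpa using this

theorem le_of_le_cj {G : Type*} [Group G] {N M : Subgroup G} [hN : N.Normal] {g : G}
    (h : N ≤ MulAut.conj g • M) : N ≤ M := by
  intro x hx
  have h1 := h (hN.conj_mem x hx g)
  rw [mem_cj] at h1
  simpa [mul_assoc] using h1

theorem cov_quot {G : Type*} [Group G] (N : Subgroup G) [hN : N.Normal] {M₁ M₂ : Subgroup G}
    (h : Cov M₁ M₂) : Cov (M₁.map (QuotientGroup.mk' N)) (M₂.map (QuotientGroup.mk' N)) := by
  have key : ∀ (M' : Subgroup (G ⧸ N)) (A : Subgroup G) (g : G),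
      M'.comap (QuotientGroup.mk' N) = MulAut.conj g • A →
      M' = MulAut.conj (QuotientGroup.mk' N g) • (A.map (QuotientGroup.mk' N)) := by
    intro M' A g he
    have hNA : N ≤ A := by
      apply le_of_le_cj (g := g)
      rw [← he]
      intro x hx
      show QuotientGroup.mk' N x ∈ M'
      have : QuotientGroup.mk' N x = 1 := (QuotientGroup.eq_one_iff _).2 hx
      rw [this]; exact M'.one_mem
    ext x
    obtain ⟨y, rfl⟩ := QuotientGroup.mk'_surjective N x
    rw [mem_cj]
    have h1 : (QuotientGroup.mk' N y ∈ M') ↔ y ∈ MulAut.conj g • A := by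
      rw [← he]; rfl
    rw [h1, mem_cj]
    constructor
    · intro hy
      exact ⟨_, hy, by simp⟩
    · rintro ⟨z, hz, hze⟩
      have h2 : QuotientGroup.mk' N z = QuotientGroup.mk' N (g⁻¹ * y * g) := by
        rw [hze]; simp
      have h3 : z⁻¹ * (g⁻¹ * y * g) ∈ N := QuotientGroup.eq.1 h2
      have := A.mul_mem hz (hNA h3)
      simpa using this
  intro M' hM'
  obtain ⟨g, h1 | h1⟩ := h _ (isCoatom_comap_mk N hM')
  · exact ⟨QuotientGroup.mk' N g, Or.inl (key M' M₁ g h1)⟩
  · exact ⟨QuotientGroup.mk' N g, Or.inr (key M' M₂ g h1)⟩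

section frattini

variable {G : Type*} [Group G] [Finite G]

/-- Frattini: for a minimal normal non-solvable `N`, a Sylow subgroup of `N` lies in a maximal
subgroup not containing `N`. -/
theorem exists_coatom_sylow {N : Subgroup G} (hN : IsMinNormal N) (hns : ¬ Group.IsSolvable N)
    {p : ℕ} [hp : Fact p.Prime] (P : Sylow p N) (hpN : p ∣ Nat.card N) :
    ∃ C : Subgroup G, IsCoatom C ∧ (P : Subgroup N).map N.subtype ≤ C ∧ ¬ N ≤ C := by
  haveI := hN.normal
  have hne : Subgroup.normalizer (((P : Subgroup N).map N.subtype : Subgroup G) : Set G) ≠ ⊤ := by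
    intro he
    have hn := Subgroup.normalizer_eq_top_iff.1 he
    have hle : (P : Subgroup N).map N.subtype ≤ N := Subgroup.map_subtype_le _
    rcases hN.eq_bot_or_eq _ hn hle with h0 | h0
    · have h1 : (P : Subgroup N) = ⊥ := by
        rwa [Subgroup.map_eq_bot_iff_of_injective _ N.subtype_injective] at h0
      exact P.ne_bot_of_dvd_card hpN h1
    · apply hns
      have hpg : IsPGroup p N := by
        have h2 : IsPGroup p ((P : Subgroup N).map N.subtype) :=
          P.isPGroup'.map N.subtype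
        rw [h0] at h2
        exact h2
      haveI := hpg.isNilpotent
      infer_instance
  obtain ⟨C, hC, hNC⟩ := exists_coatom_ge hne
  refine ⟨C, hC, Subgroup.le_normalizer.trans hNC, fun hle => hC.1 ?_⟩
  have := Sylow.normalizer_sup_eq_top P
  rw [eq_top_iff, ← this]
  exact sup_le hNC hle

theorem not_min_normal_aux {N M₁ M₂ : Subgroup G} (hN : IsMinNormal N)
    (hns : ¬ Group.IsSolvable N) (hc : Cov M₁ M₂) (h1 : N ≤ M₁) : False := by
  haveI := hN.normal
  have hconj : ∀ (g : G) {A : Subgroup G}, N ≤ A → N ≤ MulAut.conj g • A := by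
    intro g A hA x hx
    rw [mem_cj]
    exact hA (by simpa using (inferInstance : N.Normal).conj_mem x hx g⁻¹)
  have hC2 : ∀ {p : ℕ} [Fact p.Prime] (P : Sylow p N), p ∣ Nat.card N →
      ∃ (h : G), (P : Subgroup N).map N.subtype ≤ MulAut.conj h • M₂ ∧ ¬ N ≤ MulAut.conj h • M₂ := by
    intro p _ P hpN
    obtain ⟨C, hC, hPC, hNC⟩ := exists_coatom_sylow hN hns P hpN
    obtain ⟨h, rfl | rfl⟩ := hc C hC
    · exact absurd (hconj h h1) hNC
    · exact ⟨h, hPC, hNC⟩
  have hnontriv : Nat.card N ≠ 1 := by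
    intro h
    exact hN.ne_bot (Subgroup.card_eq_one.1 h)
  have hrel : M₂.relIndex N = 1 := by
    by_contra hne
    set p := (M₂.relIndex N).minFac with hpdef
    have hpp : p.Prime := Nat.minFac_prime hne
    haveI : Fact p.Prime := ⟨hpp⟩
    have hpr : p ∣ M₂.relIndex N := Nat.minFac_dvd _
    have hrd : M₂.relIndex N ∣ Nat.card N := Subgroup.index_dvd_card _
    let P : Sylow p N := default
    obtain ⟨h, hPh, -⟩ := hC2 P (hpr.trans hrd)
    apply P.not_dvd_index
    have e : (MulAut.conj h • M₂).relIndex N = M₂.relIndex N := by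
      have := Subgroup.relIndex_pointwise_smul (MulAut.conj h) M₂ N
      rwa [cj_eq_of_normal h (inferInstance : N.Normal)] at this
    have h3 : (P : Subgroup N) ≤ (MulAut.conj h • M₂).subgroupOf N := by
      intro x hx
      exact hPh ⟨x, hx, rfl⟩
    have h4 := Subgroup.index_dvd_of_le h3
    have h5 : ((MulAut.conj h • M₂).subgroupOf N).index = M₂.relIndex N := e
    rw [h5] at h4
    exact hpr.trans h4
  have hNM₂ : N ≤ M₂ := Subgroup.relIndex_eq_one.1 hrel
  set p := (Nat.card N).minFac with hpdef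
  have hpp : p.Prime := Nat.minFac_prime hnontriv
  haveI : Fact p.Prime := ⟨hpp⟩
  obtain ⟨h, -, hh⟩ := hC2 (default : Sylow p N) (Nat.minFac_dvd _)
  exact hh (hconj h hNM₂)

theorem not_min_normal {N M₁ M₂ : Subgroup G} (hN : IsMinNormal N) (hNt : N ≠ ⊤)
    (hns : ¬ Group.IsSolvable N) (hc : Cov M₁ M₂) : False := by
  haveI := hN.normal
  obtain ⟨C, hC, hNC⟩ := exists_coatom_ge hNt
  obtain ⟨g, rfl | rfl⟩ := hc C hC
  · exact not_min_normal_aux hN hns hc (le_of_le_cj hNC)
  · exact not_min_normal_aux hN hns hc.symm (le_of_le_cj hNC)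

end frattini

/-- **A finite group with at most two classes of maximal subgroups is solvable.** -/
theorem solvable_of_cov : ∀ (n : ℕ) (G : Type u) [Group G] [Finite G], Nat.card G = n →
    ∀ M₁ M₂ : Subgroup G, Cov M₁ M₂ → Group.IsSolvable G := by
  intro n
  induction n using Nat.strong_induction_on with
  | _ n ih =>
  intro G _ _ hn M₁ M₂ hc
  by_cases hnt : Nontrivial G
  swap
  · rw [not_nontrivial_iff_subsingleton] at hnt
    infer_instance
  obtain ⟨N, hN⟩ := exists_isMinNormal (G := G)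
  haveI := hN.normal
  by_cases hsol : Group.IsSolvable N
  · haveI : Group.IsSolvable (G ⧸ N) :=
      ih _ (hn ▸ card_quotient_lt N hN.ne_bot) (G ⧸ N) rfl _ _ (cov_quot N hc)
    exact (Group.isSolvable_iff_subgroup_quotient N).2 ⟨hsol, inferInstance⟩
  by_contra hGns
  by_cases hNt : N = ⊤
  swap
  · exact not_min_normal hN hNt hsol hc
  haveI hs : IsSimpleGroup G := by
    refine ⟨fun K hK => ?_⟩
    rcases hN.eq_bot_or_eq K hK (by rw [hNt]; exact le_top) with h | h
    · exact Or.inl h
    · exact Or.inr (h.trans hNt)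
  have hnp : ∀ q : ℕ, q.Prime → ¬ IsPGroup q G := by
    intro q hq hp
    haveI : Fact q.Prime := ⟨hq⟩
    haveI := hp.isNilpotent
    exact hGns inferInstance
  have key : ∀ A B : Subgroup G, Cov A B → IsCoatom A → False := by
    intro A B hAB hA
    by_cases hB : IsCoatom B
    · exact simple_false hnp hA hB hAB
    · refine simple_false (M₁ := A) (M₂ := A) hnp hA hA ?_
      intro M hM
      obtain ⟨g, h | h⟩ := hAB M hM
      · exact ⟨g, Or.inl h⟩
      · exfalso
        apply hB
        have := isCoatom_cj g⁻¹ hM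
        rwa [h, cj_inv_cj] at this
  obtain ⟨C, hC, -⟩ := exists_coatom_ge (H := (⊥ : Subgroup G)) bot_ne_top
  obtain ⟨g, h | h⟩ := hc C hC
  · have := isCoatom_cj g⁻¹ hC
    rw [h, cj_inv_cj] at this
    exact key _ _ hc this
  · have := isCoatom_cj g⁻¹ hC
    rw [h, cj_inv_cj] at this
    exact key _ _ hc.symm this

/-- Subgroups of cyclic groups: divisibility of orders gives containment. -/
theorem cyc_le {G : Type*} [Group G] [Finite G] [IsCyclic G] {A B : Subgroup G}
    (h : Nat.card A ∣ Nat.card B) : A ≤ B := by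
  classical
  haveI := Fintype.ofFinite G
  have hdpos : 0 < Nat.card B := Nat.card_pos
  have h1 := IsCyclic.card_pow_eq_one_le (α := G) hdpos
  have hsub : (B : Set G).toFinset ⊆ Finset.univ.filter (fun a : G => a ^ Nat.card B = 1) := by
    intro y hy
    rw [Set.mem_toFinset] at hy
    simp only [Finset.mem_filter, Finset.mem_univ, true_and]
    have h0 : ((⟨y, hy⟩ : B) ^ Nat.card B : B) = 1 := pow_card_eq_one'
    exact congrArg Subtype.val h0
  have hcard : (B : Set G).toFinset.card = Nat.card B := by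
    rw [Set.toFinset_card, Nat.card_eq_fintype_card]
    rfl
  have heq := Finset.eq_of_subset_of_card_le hsub (by rw [hcard]; exact h1)
  intro y hy
  have h2 : y ^ Nat.card B = 1 := by
    have h3 : ((⟨y, hy⟩ : A) ^ Nat.card A : A) = 1 := pow_card_eq_one'
    obtain ⟨c, hc⟩ := h
    rw [hc, pow_mul]
    have h4 : y ^ Nat.card A = 1 := congrArg Subtype.val h3
    rw [h4, one_pow]
  have h5 : y ∈ Finset.univ.filter (fun a : G => a ^ Nat.card B = 1) :=
    Finset.mem_filter.2 ⟨Finset.mem_univ _, h2⟩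
  rw [← heq, Set.mem_toFinset] at h5
  exact h5

/-- A `p`-group does not have exactly two classes of maximal subgroups. -/
theorem pgroup_false {G : Type*} [Group G] [Finite G] {p : ℕ} [hp : Fact p.Prime]
    (hP : IsPGroup p G) {M₁ M₂ : Subgroup G} (h1 : IsCoatom M₁) (h2 : IsCoatom M₂) (hne : M₁ ≠ M₂)
    (hc : Cov M₁ M₂) : False := by
  haveI := hP.isNilpotent
  have hcond := Group.normalizerCondition_of_isNilpotent (G := G)
  haveI hn1 : M₁.Normal := Subgroup.NormalizerCondition.normal_of_coatom M₁ hcond h1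
  haveI hn2 : M₂.Normal := Subgroup.NormalizerCondition.normal_of_coatom M₂ hcond h2
  have h12 : ¬ M₁ ≤ M₂ := fun hle => hne ((h1.le_iff_eq h2.1).1 hle).symm
  have h21 : ¬ M₂ ≤ M₁ := fun hle => hne ((h2.le_iff_eq h1.1).1 hle)
  obtain ⟨a, ha1, ha2⟩ := SetLike.not_le_iff_exists.1 h12
  obtain ⟨b, hb2, hb1⟩ := SetLike.not_le_iff_exists.1 h21
  have hx1 : a * b ∉ M₁ := fun h => hb1 ((M₁.mul_mem_cancel_left ha1).1 h)
  have hx2 : a * b ∉ M₂ := fun h => ha2 ((M₂.mul_mem_cancel_right hb2).1 h)
  have htop : Subgroup.zpowers (a * b) = ⊤ := by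
    by_contra hnt
    obtain ⟨C, hC, hle⟩ := exists_coatom_ge hnt
    have hm : a * b ∈ C := hle (Subgroup.mem_zpowers _)
    obtain ⟨g, rfl | rfl⟩ := hc C hC
    · rw [cj_eq_of_normal g hn1] at hm
      exact hx1 hm
    · rw [cj_eq_of_normal g hn2] at hm
      exact hx2 hm
  haveI : IsCyclic G := ⟨⟨a * b, fun x => by
    have : x ∈ Subgroup.zpowers (a * b) := by rw [htop]; trivial
    exact this⟩⟩
  obtain ⟨u, hu⟩ := IsPGroup.iff_card.1 (hP.to_subgroup M₁)
  obtain ⟨v, hv⟩ := IsPGroup.iff_card.1 (hP.to_subgroup M₂)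
  rcases le_total u v with huv | huv
  · exact h12 (cyc_le (by rw [hu, hv]; exact pow_dvd_pow _ huv))
  · exact h21 (cyc_le (by rw [hu, hv]; exact pow_dvd_pow _ huv))

/-- **Exactly two classes of maximal subgroups.** -/
theorem two_classes {G : Type u} [Group G] [Finite G] (M₁ M₂ : Subgroup G) (h1 : IsCoatom M₁)
    (h2 : IsCoatom M₂) (hne : ∀ g : G, M₂ ≠ MulAut.conj g • M₁) (hc : Cov M₁ M₂) :
    Group.IsSolvable G ∧ (Nat.card G).primeFactors.card = 2 := by
  classical
  have hsol : Group.IsSolvable G := solvable_of_cov _ G rfl M₁ M₂ hc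
  refine ⟨hsol, ?_⟩
  have hi1 : M₁.index ≠ 1 := fun h => h1.1 (Subgroup.index_eq_one.1 h)
  have hi2 : M₂.index ≠ 1 := fun h => h2.1 (Subgroup.index_eq_one.1 h)
  have hcardpos : Nat.card G ≠ 0 := Nat.card_pos.ne'
  -- at most two primes
  have hsub : (Nat.card G).primeFactors ⊆ {M₁.index.minFac, M₂.index.minFac} := by
    intro r hr
    have hrp : r.Prime := Nat.prime_of_mem_primeFactors hr
    have hrd : r ∣ Nat.card G := Nat.dvd_of_mem_primeFactors hr
    obtain ⟨a, m, hm, hG⟩ := Nat.exists_eq_pow_mul_and_not_dvd hcardpos r hrp.ne_one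
    have hcop : m.Coprime (r ^ a) := ((Nat.Prime.coprime_iff_not_dvd hrp).2 hm).symm.pow_right a
    obtain ⟨H, hH⟩ := Cfsg.Agent.Lib.Solvable.Hall.exists_card_eq m (r ^ a) (by rw [hG, mul_comm]) hcop
    have hindex : H.index = r ^ a := by
      have h3 := Subgroup.card_mul_index H
      rw [hH, hG, mul_comm] at h3
      have hm0 : 0 < m := Nat.pos_of_ne_zero (by rintro rfl; simp at hG; exact hcardpos hG)
      exact Nat.eq_of_mul_eq_mul_right hm0 h3
    have hHt : H ≠ ⊤ := by
      rintro rfl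
      apply hm
      rw [← hH, Nat.card_congr Subgroup.topEquiv.toEquiv]
      exact hrd
    obtain ⟨C, hC, hHC⟩ := exists_coatom_ge hHt
    have hCd := Subgroup.index_dvd_of_le hHC
    rw [hindex] at hCd
    obtain ⟨b, -, hb⟩ := (Nat.dvd_prime_pow hrp).1 hCd
    have hC1 : C.index ≠ 1 := fun h => hC.1 (Subgroup.index_eq_one.1 h)
    have hb0 : b ≠ 0 := by
      rintro rfl
      simp at hb
      exact hC.1 hb
    have hmf : C.index.minFac = r := by
      rw [hb]
      exact hrp.pow_minFac hb0
    obtain ⟨g, rfl | rfl⟩ := hc C hC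
    · rw [index_cj] at hmf
      simp [hmf]
    · rw [index_cj] at hmf
      simp [hmf]
  have hle : (Nat.card G).primeFactors.card ≤ 2 :=
    (Finset.card_le_card hsub).trans Finset.card_le_two
  -- at least two primes
  have hge : 2 ≤ (Nat.card G).primeFactors.card := by
    by_contra hlt
    have hlt' : (Nat.card G).primeFactors.card ≤ 1 := by omega
    have hnt1 : Nat.card G ≠ 1 := by
      intro h
      haveI : Subsingleton G := (Nat.card_eq_one_iff_unique.1 h).1
      exact h1.1 (Subsingleton.elim _ _)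
    obtain ⟨p, hp⟩ : ∃ p, p ∈ (Nat.card G).primeFactors :=
      ⟨(Nat.card G).minFac, Nat.mem_primeFactors.2 ⟨Nat.minFac_prime hnt1, Nat.minFac_dvd _, hcardpos⟩⟩
    have hpp : p.Prime := Nat.prime_of_mem_primeFactors hp
    haveI : Fact p.Prime := ⟨hpp⟩
    have huniq : ∀ {d : ℕ}, d.Prime → d ∣ Nat.card G → d = p := by
      intro d hd hdG
      exact Finset.card_le_one.1 hlt' d (Nat.mem_primeFactors.2 ⟨hd, hdG, hcardpos⟩) p hp
    have hpow := Nat.eq_prime_pow_of_unique_prime_dvd hcardpos huniq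
    have hP : IsPGroup p G := IsPGroup.of_card hpow
    refine pgroup_false hP h1 h2 (fun he => hne 1 ?_) hc
    rw [← he]
    simp
  omega

end Cfsg.Agent.Lib.TwoClasses
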